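import Cfsg.Agent.H562.PQR.Iface

/-!
# A product of an involution and an element of order three which is an `n`-cycle (helper206; S3988)

For `n` not divisible by `3`: `a = (0 1)(3 4)(6 7)…`, `b = (1 2 3)(4 5 6)…` on `Fin n`; `a b` is an `n`-cycle.
-/

set_option autoImplicit false

namespace Cfsg.Agent.H206.PQR.AltTri

open Equiv Equiv.Perm

/-- the involution -/
def af (n x : ℕ) : ℕ := if x % 3 = 0 then (if x + 1 < n then x + 1 else x) else if x % 3 = 1 then x - 1 else x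

/-- the element of order three -/
def bf (n x : ℕ) : ℕ :=
  if x % 3 = 0 then (if x = 0 then 0 else x - 2) else if x % 3 = 1 then (if x + 2 < n then x + 1 else x) else x + 1

variable {n : ℕ}

theorem af_lt {x : ℕ} (hx : x < n) : af n x < n := by
  unfold af
  split_ifs <;> omega

theorem bf_lt (h3 : n % 3 ≠ 0) {x : ℕ} (hx : x < n) : bf n x < n := by
  unfold bf
  split_ifs <;> omega

theorem af_af {x : ℕ} (hx : x < n) : af n (af n x) = x := by
  unfold af
  split_ifs <;> omega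

theorem bf_bf_bf (h3 : n % 3 ≠ 0) {x : ℕ} (hx : x < n) : bf n (bf n (bf n x)) = x := by
  have h : x = 0 ∨ (x % 3 = 0 ∧ 3 ≤ x) ∨ (x % 3 = 1 ∧ x + 2 < n) ∨ (x % 3 = 1 ∧ ¬ x + 2 < n) ∨ (x % 3 = 2 ∧ x + 1 < n) := by
    omega
  have e0 : bf n 0 = 0 := by simp [bf]
  have e1 : ∀ y, y % 3 = 0 → y ≠ 0 → bf n y = y - 2 := by
    intro y h1 h2
    simp [bf, h1, h2]
  have e2 : ∀ y, y % 3 = 1 → y + 2 < n → bf n y = y + 1 := by
    intro y h1 h2
    simp [bf, h1, h2]
  have e3 : ∀ y, y % 3 = 1 → ¬ y + 2 < n → bf n y = y := by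
    intro y h1 h2
    simp [bf, h1, h2]
  have e4 : ∀ y, y % 3 = 2 → bf n y = y + 1 := by
    intro y h1
    simp [bf, h1]
  rcases h with rfl | ⟨h1, h2⟩ | ⟨h1, h2⟩ | ⟨h1, h2⟩ | ⟨h1, h2⟩
  · rw [e0, e0, e0]
  · rw [e1 x h1 (by omega), e2 (x - 2) (by omega) (by omega), e4 (x - 2 + 1) (by omega)]
    omega
  · rw [e2 x h1 h2, e4 (x + 1) (by omega), e1 (x + 1 + 1) (by omega) (by omega)]
    omega
  · rw [e3 x h1 h2, e3 x h1 h2, e3 x h1 h2]
  · rw [e4 x h1, e1 (x + 1) (by omega) (by omega), e2 (x + 1 - 2) (by omega) (by omega)]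
    omega

/-- the involution as a permutation -/
def a (n : ℕ) : Perm (Fin n) where
  toFun x := ⟨af n x.1, af_lt x.2⟩
  invFun x := ⟨af n x.1, af_lt x.2⟩
  left_inv x := Fin.ext (af_af x.2)
  right_inv x := Fin.ext (af_af x.2)

/-- the element of order three as a permutation -/
def b (h3 : n % 3 ≠ 0) : Perm (Fin n) where
  toFun x := ⟨bf n x.1, bf_lt h3 x.2⟩
  invFun x := ⟨bf n (bf n x.1), bf_lt h3 (bf_lt h3 x.2)⟩
  left_inv x := Fin.ext (bf_bf_bf h3 x.2)
  right_inv x := Fin.ext (bf_bf_bf h3 x.2)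

theorem a_sq (n : ℕ) : a n ^ 2 = 1 := by
  ext x
  rw [pow_two, mul_apply]
  exact af_af x.2

theorem b_cube (h3 : n % 3 ≠ 0) : b h3 ^ 3 = 1 := by
  ext x
  rw [pow_succ, pow_two, mul_apply, mul_apply]
  exact bf_bf_bf h3 x.2

theorem ab_apply (h3 : n % 3 ≠ 0) (x : Fin n) : ((a n * b h3) x : ℕ) = af n (bf n x) := rfl

/-- all points are in one orbit -/
theorem sameCycle (h3 : n % 3 ≠ 0) (h1 : 1 < n) : ∀ (x : ℕ) (hx : x < n),
    SameCycle (a n * b h3) ⟨0, by omega⟩ ⟨x, hx⟩ := by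
  intro x
  induction x using Nat.strong_induction_on with
  | _ x ih =>
    intro hx
    have step : ∀ (y z : ℕ) (hy : y < n) (hz : z < n), af n (bf n y) = z →
        SameCycle (a n * b h3) ⟨y, hy⟩ ⟨z, hz⟩ := by
      intro y z hy hz h
      refine ⟨1, ?_⟩
      rw [zpow_one]
      exact Fin.ext h
    have hcase : x = 0 ∨ x = 1 ∨ (x % 3 = 2) ∨ (x % 3 = 1 ∧ 4 ≤ x) ∨ (x % 3 = 0 ∧ 3 ≤ x) := by omega
    rcases hcase with rfl | rfl | h | ⟨h, h4⟩ | ⟨h, h4⟩
    · exact SameCycle.refl _ _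
    · refine step 0 1 (by omega) hx ?_
      simp [bf, af, h1]
    · refine (ih (x - 1) (by omega) (by omega)).trans (step (x - 1) x (by omega) hx ?_)
      have e1 : bf n (x - 1) = x := by
        unfold bf
        split_ifs <;> omega
      rw [e1]
      unfold af
      split_ifs <;> omega
    · refine (ih (x - 2) (by omega) (by omega)).trans (step (x - 2) x (by omega) hx ?_)
      have e1 : bf n (x - 2) = x - 1 := by
        unfold bf
        split_ifs <;> omega
      rw [e1]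
      unfold af
      split_ifs <;> omega
    · refine (ih (x - 3) (by omega) (by omega)).trans (step x (x - 3) hx (by omega) ?_).symm
      have e1 : bf n x = x - 2 := by
        unfold bf
        split_ifs <;> omega
      rw [e1]
      unfold af
      split_ifs <;> omega

theorem isCycle (h3 : n % 3 ≠ 0) (h1 : 1 < n) : IsCycle (a n * b h3) ∧ (a n * b h3).support = Finset.univ := by
  have h0 : (a n * b h3) ⟨0, by omega⟩ ≠ ⟨0, by omega⟩ := by
    intro h
    have := congrArg Fin.val h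
    rw [ab_apply] at this
    simp [bf, af, h1] at this
  refine ⟨⟨⟨0, by omega⟩, h0, fun y _ => sameCycle h3 h1 y.1 y.2⟩, ?_⟩
  rw [Finset.eq_univ_iff_forall]
  intro y
  rw [mem_support]
  intro hy
  apply h0
  exact ((sameCycle h3 h1 y.1 y.2).apply_eq_self_iff).2 hy

theorem orderOf_ab (h3 : n % 3 ≠ 0) (h1 : 1 < n) : orderOf (a n * b h3) = n := by
  rw [(isCycle h3 h1).1.orderOf, (isCycle h3 h1).2, Finset.card_univ, Fintype.card_fin]

theorem a_ne (h1 : 1 < n) : a n ≠ 1 := by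
  intro h
  have := congrArg (fun p : Perm (Fin n) => (p ⟨0, by omega⟩ : ℕ)) h
  change af n 0 = 0 at this
  simp [af, h1] at this

theorem b_ne (h3 : n % 3 ≠ 0) (h1 : 3 < n) : b h3 ≠ 1 := by
  intro h
  have := congrArg (fun p : Perm (Fin n) => (p ⟨1, by omega⟩ : ℕ)) h
  change bf n 1 = 1 at this
  simp [bf, h1] at this

theorem sign_b (h3 : n % 3 ≠ 0) : sign (b h3) = 1 := by
  have h := congrArg sign (b_cube h3)
  rw [map_pow, map_one] at h
  rcases Int.units_eq_one_or (sign (b h3)) with h1 | h1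
  · exact h1
  · rw [h1] at h
    exact absurd h (by decide)

theorem sign_a (h3 : n % 3 ≠ 0) (h1 : 1 < n) (hn : Odd n) : sign (a n) = 1 := by
  have h := (isCycle h3 h1).1.sign
  rw [(isCycle h3 h1).2, Finset.card_univ, Fintype.card_fin, map_mul, sign_b, mul_one, hn.neg_one_pow] at h
  rw [h, neg_neg]

end Cfsg.Agent.H206.PQR.AltTri
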