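import Cfsg.Agent.H206.PQR.AltTri
import Cfsg.Agent.S0892
import Cfsg.Agent.S0102

/-!
# S3988: the row of the alternating groups (helper206)
-/

set_option autoImplicit false
set_option linter.style.haveILetI false

namespace Cfsg.Agent.H206.PQR.RowAlt

open Equiv Equiv.Perm
open Cfsg.Agent.H80.Fpf (IsCover MultDvd)
open Cfsg.Agent.H562.PQR

theorem exists_inj {m n : ℕ} (h : m ≤ n) :
    ∃ f : alternatingGroup (Fin m) →* alternatingGroup (Fin n), Function.Injective f := by
  let ι : Fin m ↪ Fin n := Fin.castLEEmb h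
  let φ : Perm (Fin m) →* Perm (Fin n) := Perm.extendDomainHom (Equiv.ofInjective ι.1 ι.2)
  have hs : ∀ a : Perm (Fin m), Perm.sign (φ a) = Perm.sign a :=
    fun a => Perm.sign_extendDomain a (Equiv.ofInjective ι.1 ι.2)
  have hφ : Function.Injective φ := Perm.extendDomainHom_injective (Equiv.ofInjective ι.1 ι.2)
  refine ⟨(φ.comp (alternatingGroup (Fin m)).subtype).codRestrict _ ?_, ?_⟩
  · rintro ⟨a, ha⟩
    rw [Perm.mem_alternatingGroup] at ha ⊢
    change Perm.sign (φ a) = 1
    rw [hs, ha]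
  · intro a b hab
    have h1 := congrArg Subtype.val hab
    exact Subtype.ext (hφ h1)

theorem card_alt {n : ℕ} (hn : 2 ≤ n) : 2 * Nat.card (alternatingGroup (Fin n)) = n.factorial := by
  have : Nontrivial (Fin n) := Fin.nontrivial_iff_two_le.2 (by omega)
  rw [two_mul_nat_card_alternatingGroup, Nat.card_perm, Nat.card_fin]

theorem card_lt {m n : ℕ} (hm : 2 ≤ m) (hmn : m < n) :
    Nat.card (alternatingGroup (Fin m)) < Nat.card (alternatingGroup (Fin n)) := by
  have h3 := card_alt hm
  have h4 := card_alt (n := n) (by omega)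
  have h5 : m.factorial < n.factorial := (Nat.factorial_lt (by omega)).2 hmn
  omega

theorem prime_dvd_iff {n p : ℕ} (hn : 2 ≤ n) (hp : p.Prime) (hp2 : p ≠ 2) :
    p ∣ Nat.card (alternatingGroup (Fin n)) ↔ p ≤ n := by
  rw [← hp.dvd_factorial, ← card_alt hn]
  constructor
  · exact fun h => h.mul_left 2
  · intro h
    rcases hp.dvd_mul.1 h with h1 | h1
    · exact absurd ((Nat.prime_dvd_prime_iff_eq hp Nat.prime_two).1 h1) hp2
    · exact h1

theorem simple {n : ℕ} (hn : 5 ≤ n) : IsSimpleGroup (alternatingGroup (Fin n)) :=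
  alternatingGroup.isSimpleGroup (by rw [Nat.card_fin]; exact hn)

/-- elements of the alternating group -/
theorem exists_xy {n : ℕ} (h3 : n % 3 ≠ 0) (h1 : 3 < n) (hn : Odd n) :
    ∃ x y : alternatingGroup (Fin n), orderOf x = 2 ∧ orderOf y = 3 ∧ orderOf (x * y) = n := by
  refine ⟨⟨AltTri.a n, ?_⟩, ⟨AltTri.b h3, ?_⟩, ?_, ?_, ?_⟩
  · rw [mem_alternatingGroup]
    exact AltTri.sign_a h3 (by omega) hn
  · rw [mem_alternatingGroup]
    exact AltTri.sign_b h3
  · rw [Subgroup.orderOf_mk]
    exact orderOf_eq_prime (AltTri.a_sq n) (AltTri.a_ne (by omega))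
  · rw [Subgroup.orderOf_mk]
    haveI : Fact (Nat.Prime 3) := ⟨Nat.prime_three⟩
    exact orderOf_eq_prime (AltTri.b_cube h3) (AltTri.b_ne h3 h1)
  · rw [MulMemClass.mk_mul_mk, Subgroup.orderOf_mk]
    exact AltTri.orderOf_ab h3 (by omega)

theorem not_comm {n : ℕ} (hn : 5 ≤ n) : ∃ x y : alternatingGroup (Fin n), x * y ≠ y * x := by
  by_contra hcon
  push Not at hcon
  haveI := simple hn
  have hc : Subgroup.center (alternatingGroup (Fin n)) = ⊤ := by
    rw [Subgroup.eq_top_iff']
    intro x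
    rw [Subgroup.mem_center_iff]
    exact fun y => hcon y x
  have h4 := alternatingGroup.center_eq_bot (α := Fin n) (by rw [Nat.card_fin]; omega)
  rw [h4] at hc
  have h5 := card_lt (m := 4) (n := n) (by norm_num) (by omega)
  have h6 : Nat.card (alternatingGroup (Fin n)) = 1 := by
    rw [← Subgroup.card_top, ← hc, Subgroup.card_bot]
  rw [h6] at h5
  have h7 := card_alt (n := 4) (by norm_num)
  have h8 : Nat.factorial 4 = 24 := rfl
  omega

/-- the multiplier -/
theorem mult {n : ℕ} (hn : 4 ≤ n) (h6 : n ≠ 6) (h7 : n ≠ 7) : MultDvd (alternatingGroup (Fin n)) 2 := by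
  intro G _ _ π hπ
  have h := Cfsg.Agent.S0892.result n hn h6 h7 π.ker hπ.central (by rw [hπ.perf]; exact le_top)
    (QuotientGroup.quotientKerEquivOfSurjective π hπ.surj)
  have h1 : 0 < Nat.card π.ker := Nat.card_pos
  interval_cases Nat.card π.ker
  · exact one_dvd _
  · exact dvd_rfl

theorem PE.of_prime {G : Type} [Group G] {a : ℕ} (ha : a.Prime) {x : G} (h : orderOf x = a) : PE a x :=
  Cfsg.Agent.H562.PQR.PE.of_orderOf ha h

theorem clift_of_bot {S : Type} [Group S] {s : ℕ}
    (h0 : ∀ (Γ : Type) [Group Γ] [Finite Γ] (π : Γ →* S), IsCover π → IsPGroup s π.ker → π.ker = ⊥)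
    {x y z : S} (h : x * y * z = 1) (hx : ¬ s ∣ orderOf x) (hy : ¬ s ∣ orderOf y) (hz : ¬ s ∣ orderOf z) :
    CLift s x y z := by
  intro Γ _ _ π hπ hk
  have hinj : Function.Injective π := (MonoidHom.ker_eq_bot_iff π).1 (h0 Γ π hπ hk)
  let e : Γ ≃* S := MulEquiv.ofBijective π ⟨hinj, hπ.surj⟩
  have he : ∀ t : S, π (e.symm t) = t := fun t => e.apply_symm_apply t
  refine ⟨e.symm x, e.symm y, e.symm z, he x, he y, he z, ?_, ?_, ?_, ?_⟩
  · rw [← map_mul, ← map_mul, h, map_one]
  · rwa [e.symm.orderOf_eq]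
  · rwa [e.symm.orderOf_eq]
  · rwa [e.symm.orderOf_eq]

/-- primes `n ≥ 5` -/
theorem tripABC {p : ℕ} (hp : p.Prime) (h5 : 5 ≤ p) : TripABC 2 3 p (alternatingGroup (Fin p)) := by
  have h3 : p % 3 ≠ 0 := by
    intro h
    have h1 : 3 ∣ p := Nat.dvd_of_mod_eq_zero h
    have h2 := (Nat.prime_dvd_prime_iff_eq Nat.prime_three hp).1 h1
    omega
  have hodd : Odd p := hp.odd_of_ne_two (by omega)
  obtain ⟨x, y, hx, hy, hxy⟩ := exists_xy h3 (by omega) hodd
  have hx' := PE.of_orderOf Nat.prime_two hx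
  have hy' := PE.of_orderOf Nat.prime_three hy
  have hz' : PE p (x * y)⁻¹ := (PE.of_orderOf hp hxy).inv
  have h1 : x * y * (x * y)⁻¹ = 1 := mul_inv_cancel _
  by_cases h7 : p = 7
  · subst h7
    refine ⟨Nat.prime_two, Nat.prime_three, hp, by norm_num, by norm_num, by norm_num, x, y, (x * y)⁻¹, hx', hy', hz',
      h1, fun s hs h2 _ h3' h7' hd => ?_⟩
    have hs7 : s ≤ 7 := (prime_dvd_iff (by norm_num) hs h2).1 hd
    have hs5 : s = 5 := by
      interval_cases s
      all_goals first | rfl | (exfalso; revert hs; norm_num; done) | omega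
    subst hs5
    haveI : Fact (Nat.Prime 5) := ⟨Nat.prime_five⟩
    refine clift_of_bot ?_ h1 (by rw [hx]; norm_num) (by rw [hy]; norm_num)
      (by rw [orderOf_inv, hxy]; norm_num)
    intro Γ _ _ π hπ hk
    have hperf : commutator (alternatingGroup (Fin 7)) = ⊤ := by
      haveI := simple (n := 7) (by norm_num)
      obtain ⟨u, v, huv⟩ := not_comm (n := 7) (by norm_num)
      exact Cfsg.Agent.H80.Fpf.perfect_of_simple huv
    have hcyc : ∀ P : Sylow 5 (alternatingGroup (Fin 7)), IsCyclic P := by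
      intro P
      have hcard : Nat.card (alternatingGroup (Fin 7)) = 2520 := by
        have := card_alt (n := 7) (by norm_num)
        have h8 : Nat.factorial 7 = 5040 := rfl
        omega
      have h9 : Nat.card P = 5 := by
        rw [P.card_eq_multiplicity, hcard]
        have : (2520 : ℕ).factorization 5 = 1 := by
          rw [show (2520 : ℕ) = 5 ^ 1 * 504 by norm_num, Nat.factorization_mul (by norm_num) (by norm_num),
            Nat.factorization_pow]
          simp [Nat.prime_five.factorization, Nat.factorization_eq_zero_of_not_dvd (show ¬ 5 ∣ 504 by norm_num)]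
        rw [this, pow_one]
      exact isCyclic_of_prime_card h9
    have hnd := Cfsg.Agent.S0102.result hperf hcyc π hπ.surj hπ.central hπ.perf
    obtain ⟨n, hn⟩ := IsPGroup.iff_card.1 hk
    have h3 : n = 0 := by
      by_contra h3
      exact hnd (by rw [hn]; exact dvd_pow_self 5 h3)
    rw [h3, pow_zero] at hn
    exact Subgroup.card_eq_one.1 hn
  · refine TripABC.of_mult (mult (by omega) (by rintro rfl; revert hp; norm_num) h7) (fun s hs hd => ?_)
      Nat.prime_two Nat.prime_three hp (by norm_num) (by omega) (by omega) hx' hy' hz' h1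
    exact Or.inl ((Nat.prime_dvd_prime_iff_eq hs Nat.prime_two).1 hd)

/-- **the row of the alternating groups** -/
theorem row_alt {n : ℕ} (hn : 5 ≤ n) : RowOdd (alternatingGroup (Fin n)) := by
  intro p hp hp2 hd
  haveI : Fact p.Prime := ⟨hp⟩
  have hpn := (prime_dvd_iff (by omega) hp hp2).1 hd
  by_cases h5 : p = n ∧ 5 ≤ p
  · obtain ⟨rfl, h5⟩ := h5
    exact Or.inr ⟨2, 3, p, Or.inr (Or.inr rfl), Or.inl rfl, tripABC hp h5⟩
  · by_cases h6 : 6 ≤ n
    · have hpn' : p ≤ n - 1 := by omega
      obtain ⟨f, hf⟩ := exists_inj (Nat.sub_le n 1)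
      haveI := simple (n := n - 1) (by omega)
      exact Or.inl (NotMin.of_injective f hf
        (not_isPSolvable_of_simple (not_comm (by omega)) hp ((prime_dvd_iff (by omega) hp hp2).2 hpn'))
        (card_lt (by omega) (by omega)))
    · have hn5 : n = 5 := by omega
      subst hn5
      have hp3 : p = 3 := by
        interval_cases p
        all_goals first | rfl | (exfalso; revert hp; norm_num; done) | omega
      subst hp3
      exact Or.inr ⟨2, 3, 5, Or.inr (Or.inl rfl), Or.inl rfl, tripABC Nat.prime_five le_rfl⟩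

end Cfsg.Agent.H206.PQR.RowAlt
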